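import Mathlib

/-!
# S5719, block ODD: the inverting element of a group of symplectic type (helper204)

`X` a finite subgroup of the units of an `F`-algebra `𝓐`, `u ^ r = 1` on `X` (`r` an odd prime, `r ≠ 0` in `F`), the
commutators of `X` are scalars and the centre of `X` consists of scalars.  Then there is `g ∈ 𝓐`, `g² = 1`, with
`u g u ∈ F g` for all `u ∈ X`; `g` commutes with the centralizer of `X` and is fixed by every anti-automorphism
inverting `X`.  For a pair `h, k` with `h k = c k h` : `J = (1/r) ∑ k⁻ⁱ hʲ k⁻ⁱ`.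
-/

set_option autoImplicit false
set_option linter.unusedSectionVars false

namespace Cfsg.Agent.H204.IFO.Inv

open Finset

section E

variable {M : Type*} [Monoid M] {r : ℕ} [NeZero r]

/-- `x ^ a`, `a ∈ ZMod r` -/
def E (x : M) (a : ZMod r) : M := x ^ a.val

theorem E_zero (x : M) : E x (0 : ZMod r) = 1 := by
  rw [E, ZMod.val_zero, pow_zero]

theorem E_add {x : M} (hx : x ^ r = 1) (a b : ZMod r) : E x (a + b) = E x a * E x b := by
  rw [E, E, E, ZMod.val_add, ← pow_eq_pow_mod _ hx, pow_add]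

theorem E_one {x : M} (hx : x ^ r = 1) : E x (1 : ZMod r) = x := by
  rw [E, ZMod.val_one_eq_one_mod, ← pow_eq_pow_mod _ hx, pow_one]

theorem E_mul {x : M} (hx : x ^ r = 1) (a b : ZMod r) : E x (a * b) = x ^ (a.val * b.val) := by
  rw [E, ZMod.val_mul, ← pow_eq_pow_mod _ hx]

end E

section alg

variable {F 𝓐 : Type*} [Field F] [Ring 𝓐] [Algebra F 𝓐]

/-- `h ^ m k ^ n = c ^ (m n) k ^ n h ^ m` -/
theorem pow_comm {h k : 𝓐} {c : F} (hk : h * k = c • (k * h)) (m n : ℕ) :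
    h ^ m * k ^ n = c ^ (m * n) • (k ^ n * h ^ m) := by
  have h1 : ∀ n : ℕ, h * k ^ n = c ^ n • (k ^ n * h) := by
    intro n
    induction n with
    | zero => simp
    | succ n ih =>
      rw [pow_succ, ← mul_assoc, ih, smul_mul_assoc, mul_assoc, hk, mul_smul_comm, smul_smul, pow_succ, mul_assoc]
  induction m with
  | zero => simp
  | succ m ih =>
    rw [pow_succ, mul_assoc, h1, mul_smul_comm, ← mul_assoc, ih, smul_mul_assoc, smul_smul, mul_assoc, ← pow_add]
    congr 2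
    ring

variable {r : ℕ} [NeZero r]

theorem E_comm {h k : 𝓐} {c : F} (hk : h * k = c • (k * h)) (hc : c ^ r = 1) (a b : ZMod r) :
    E h a * E k b = E c (a * b) • (E k b * E h a) := by
  rw [E_mul hc]
  exact pow_comm hk _ _

/-- the projection on the fixed space of `h` -/
noncomputable def P (F : Type*) [Field F] {𝓐 : Type*} [Ring 𝓐] [Algebra F 𝓐] (r : ℕ) [NeZero r] (h : 𝓐) : 𝓐 :=
  (r : F)⁻¹ • ∑ j : ZMod r, E h j

/-- the element inverting `h` and `k` -/
noncomputable def J (F : Type*) [Field F] {𝓐 : Type*} [Ring 𝓐] [Algebra F 𝓐] (r : ℕ) [NeZero r] (h k : 𝓐) : 𝓐 :=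
  ∑ i : ZMod r, E k (-i) * P F r h * E k (-i)

theorem mul_P {h : 𝓐} (hh : h ^ r = 1) : h * P F r h = P F r h := by
  rw [P, mul_smul_comm, mul_sum]
  congr 1
  have h1 : ∀ j : ZMod r, h * E h j = E h (1 + j) := fun j => by rw [E_add hh, E_one hh]
  rw [sum_congr rfl fun j _ => h1 j]
  exact Fintype.sum_equiv (Equiv.addLeft (1 : ZMod r)) _ _ fun j => rfl

theorem P_mul {h : 𝓐} (hh : h ^ r = 1) : P F r h * h = P F r h := by
  rw [P, smul_mul_assoc, sum_mul]
  congr 1
  have h1 : ∀ j : ZMod r, E h j * h = E h (j + 1) := fun j => by rw [E_add hh, E_one hh]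
  rw [sum_congr rfl fun j _ => h1 j]
  exact Fintype.sum_equiv (Equiv.addRight (1 : ZMod r)) _ _ fun j => rfl

theorem E_mul_P {h : 𝓐} (hh : h ^ r = 1) (a : ZMod r) : E h a * P F r h = P F r h := by
  rw [E]
  generalize a.val = n
  induction n with
  | zero => rw [pow_zero, one_mul]
  | succ n ih => rw [pow_succ, mul_assoc, mul_P hh, ih]

theorem P_mul_P (hr : (r : F) ≠ 0) {h : 𝓐} (hh : h ^ r = 1) : P F r h * P F r h = P F r h := by
  nth_rewrite 1 [P]
  rw [smul_mul_assoc, sum_mul, sum_congr rfl fun j _ => E_mul_P (F := F) hh j, sum_const, card_univ, ZMod.card,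
    ← Nat.cast_smul_eq_nsmul F, smul_smul, inv_mul_cancel₀ hr, one_smul]

variable {h k : 𝓐} {c : F}

/-- `c` is a primitive `r`-th root of unity -/
theorem E_ne_one (hrp : r.Prime) (hc : c ^ r = 1) (hc1 : c ≠ 1) {a : ZMod r} (ha : a ≠ 0) : E c a ≠ 1 := by
  intro h1
  have h2 : orderOf c = r := by
    rcases (Nat.dvd_prime hrp).1 (orderOf_dvd_of_pow_eq_one hc) with h2 | h2
    · exact absurd (orderOf_eq_one_iff.1 h2) hc1
    · exact h2
  have h3 : r ∣ a.val := (dvd_of_eq h2.symm).trans (orderOf_dvd_of_pow_eq_one h1)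
  have h4 : a.val = 0 := Nat.eq_zero_of_dvd_of_lt h3 (ZMod.val_lt a)
  exact ha ((ZMod.val_eq_zero a).1 h4)

theorem sum_E (hrp : r.Prime) (hc : c ^ r = 1) (hc1 : c ≠ 1) {a : ZMod r} (ha : a ≠ 0) :
    ∑ i : ZMod r, E c (i * a) = 0 := by
  have h1 : E c a * ∑ i : ZMod r, E c (i * a) = ∑ i : ZMod r, E c (i * a) := by
    rw [mul_sum]
    have h2 : ∀ i : ZMod r, E c a * E c (i * a) = E c ((1 + i) * a) := fun i => by
      rw [← E_add hc]
      congr 1
      ring
    rw [sum_congr rfl fun i _ => h2 i]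
    exact Fintype.sum_equiv (Equiv.addLeft (1 : ZMod r)) _ _ fun j => rfl
  have h2 : (E c a - 1) * ∑ i : ZMod r, E c (i * a) = 0 := by
    rw [sub_mul, h1, one_mul, sub_self]
  exact (mul_eq_zero.1 h2).resolve_left (sub_ne_zero.2 (E_ne_one hrp hc hc1 ha))

theorem P_E_P (hrp : r.Prime) (hh : h ^ r = 1) (hk : h * k = c • (k * h)) (hc : c ^ r = 1)
    (hc1 : c ≠ 1) {a : ZMod r} (ha : a ≠ 0) : P F r h * E k a * P F r h = 0 := by
  have h1 : P F r h * E k a * P F r h = E c a • (P F r h * E k a * P F r h) := by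
    have h2 : h * E k a = E c a • (E k a * h) := by
      have := E_comm (r := r) hk hc 1 a
      rwa [E_one hh, one_mul] at this
    calc P F r h * E k a * P F r h = P F r h * h * E k a * P F r h := by rw [P_mul hh]
      _ = P F r h * (h * E k a) * P F r h := by rw [mul_assoc (P F r h) h]
      _ = E c a • (P F r h * (E k a * (h * P F r h))) := by
        rw [h2, mul_smul_comm, smul_mul_assoc]
        congr 1
        simp only [mul_assoc]
      _ = E c a • (P F r h * E k a * P F r h) := by rw [mul_P hh, mul_assoc]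
  have h2 : (E c a - 1) • (P F r h * E k a * P F r h) = 0 := by
    rw [sub_smul, one_smul, ← h1, sub_self]
  exact (smul_eq_zero.1 h2).resolve_left (sub_ne_zero.2 (E_ne_one hrp hc hc1 ha))

theorem sum_conj (hrp : r.Prime) (hr : (r : F) ≠ 0) (hkr : k ^ r = 1) (hk : h * k = c • (k * h))
    (hc : c ^ r = 1) (hc1 : c ≠ 1) : ∑ i : ZMod r, E k (-i) * P F r h * E k i = 1 := by
  have h1 : ∀ i : ZMod r, E k (-i) * P F r h * E k i = (r : F)⁻¹ • ∑ j : ZMod r, E c (i * j) • E h j := by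
    intro i
    rw [P, mul_smul_comm, smul_mul_assoc, mul_sum, sum_mul]
    congr 1
    refine sum_congr rfl fun j _ => ?_
    rw [mul_assoc, E_comm hk hc, mul_smul_comm, ← mul_assoc, ← E_add hkr, neg_add_cancel, E_zero, one_mul, mul_comm j i]
  rw [sum_congr rfl fun i _ => h1 i, ← smul_sum, sum_comm, sum_eq_single 0]
  · rw [sum_congr rfl fun i _ => by rw [mul_zero, E_zero, one_smul], sum_const, card_univ, ZMod.card,
      ← Nat.cast_smul_eq_nsmul F, smul_smul, inv_mul_cancel₀ hr, one_smul, E_zero]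
  · intro j _ hj
    rw [← sum_smul, sum_E hrp hc hc1 hj, zero_smul]
  · intro h0
    exact absurd (mem_univ _) h0

theorem J_sq (hrp : r.Prime) (hr : (r : F) ≠ 0) (hh : h ^ r = 1) (hkr : k ^ r = 1) (hk : h * k = c • (k * h))
    (hc : c ^ r = 1) (hc1 : c ≠ 1) : J F r h k * J F r h k = 1 := by
  rw [← sum_conj hrp hr hkr hk hc hc1]
  nth_rewrite 1 [J]
  rw [sum_mul]
  refine sum_congr rfl fun i _ => ?_
  rw [J, mul_sum, sum_eq_single (-i)]
  · rw [neg_neg]
    calc E k (-i) * P F r h * E k (-i) * (E k i * P F r h * E k i)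
        = E k (-i) * (P F r h * (E k (-i) * E k i) * P F r h) * E k i := by simp only [mul_assoc]
      _ = E k (-i) * P F r h * E k i := by rw [← E_add hkr, neg_add_cancel, E_zero, mul_one, P_mul_P hr hh]
  · intro j _ hj
    have h1 : -i + -j ≠ 0 := by
      intro h2
      exact hj (neg_eq_iff_eq_neg.1 (eq_neg_of_add_eq_zero_right h2 : -j = - -i) |>.trans (by rw [neg_neg]))
    calc E k (-i) * P F r h * E k (-i) * (E k (-j) * P F r h * E k (-j))
        = E k (-i) * (P F r h * (E k (-i) * E k (-j)) * P F r h) * E k (-j) := by simp only [mul_assoc]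
      _ = 0 := by rw [← E_add hkr, P_E_P hrp hh hk hc hc1 h1, mul_zero, zero_mul]
  · intro h0
    exact absurd (mem_univ _) h0

/-- `J` inverts `k` -/
theorem mul_J_mul_k (hkr : k ^ r = 1) : k * J F r h k * k = J F r h k := by
  rw [J, mul_sum, sum_mul]
  have h1 : ∀ i : ZMod r, k * (E k (-i) * P F r h * E k (-i)) * k = E k (1 + -i) * P F r h * E k (1 + -i) := fun i => by
    rw [E_add hkr, E_one hkr]
    have h2 : k * E k (-i) = E k (-i) * k := by rw [E, ← pow_succ', pow_succ]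
    simp only [mul_assoc, h2]
    rw [← mul_assoc k (E k (-i)), h2, mul_assoc]
  rw [sum_congr rfl fun i _ => h1 i]
  refine Fintype.sum_equiv (Equiv.subRight (1 : ZMod r)) _ _ fun i => ?_
  have h2 : 1 + -i = -(i - 1) := by ring
  rw [Equiv.subRight_apply, h2]

/-- `J` inverts `h` -/
theorem mul_J_mul_h (hh : h ^ r = 1) (hk : h * k = c • (k * h)) (hc : c ^ r = 1) :
    h * J F r h k * h = J F r h k := by
  rw [J, mul_sum, sum_mul]
  refine sum_congr rfl fun i _ => ?_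
  have h2 : h * E k (-i) = E c (-i) • (E k (-i) * h) := by
    have := E_comm (r := r) hk hc 1 (-i)
    rwa [E_one hh, one_mul] at this
  have h3 : E k (-i) * h = E c i • (h * E k (-i)) := by
    rw [h2, smul_smul, ← E_add hc, add_neg_cancel, E_zero, one_smul]
  calc h * (E k (-i) * P F r h * E k (-i)) * h = (h * E k (-i)) * P F r h * (E k (-i) * h) := by simp only [mul_assoc]
    _ = (E c (-i) • (E k (-i) * h)) * P F r h * (E c i • (h * E k (-i))) := by rw [← h2, ← h3]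
    _ = (E c (-i) * E c i) • (E k (-i) * (h * P F r h * h) * E k (-i)) := by
      rw [mul_comm (E c (-i)) (E c i)]
      simp only [smul_mul_assoc, mul_smul_comm, smul_smul, mul_assoc]
    _ = E k (-i) * P F r h * E k (-i) := by
      rw [← E_add hc, neg_add_cancel, E_zero, one_smul, mul_P hh, P_mul hh]

theorem E_commute {x : 𝓐} (hx : Commute x h) (a : ZMod r) : Commute x (E h a) := hx.pow_right _

theorem P_commute {x : 𝓐} (hx : Commute x h) : Commute x (P F r h) := by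
  rw [P]
  exact (Commute.sum_right _ _ _ fun j _ => E_commute hx j).smul_right _

theorem J_commute {x : 𝓐} (hx : Commute x h) (hx' : Commute x k) : Commute x (J F r h k) := by
  rw [J]
  exact Commute.sum_right _ _ _ fun j _ => ((E_commute hx' _).mul_right (P_commute hx)).mul_right (E_commute hx' _)

/-- an anti-automorphism -/
theorem star_pow {s : 𝓐 →+ 𝓐} (hs : ∀ x y, s (x * y) = s y * s x) (hs1 : s 1 = 1) (x : 𝓐) (n : ℕ) :
    s (x ^ n) = s x ^ n := by
  induction n with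
  | zero => rw [pow_zero, pow_zero, hs1]
  | succ n ih => rw [pow_succ, hs, ih, ← pow_succ']

theorem star_E {s : 𝓐 →+ 𝓐} (hs : ∀ x y, s (x * y) = s y * s x) (hs1 : s 1 = 1) (hh : h ^ r = 1) (hsh : s h * h = 1)
    (a : ZMod r) : s (E h a) = E h (-a) := by
  have h1 : s (E h a) = E (s h) a := star_pow hs hs1 _ _
  have hcm : Commute (s h) h := by
    have h2 : h * h ^ (r - 1) = 1 := by
      rw [← pow_succ', Nat.sub_add_cancel (NeZero.pos r), hh]
    have h3 : s h = h ^ (r - 1) := by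
      calc s h = s h * (h * h ^ (r - 1)) := by rw [h2, mul_one]
        _ = h ^ (r - 1) := by rw [← mul_assoc, hsh, one_mul]
    rw [h3]
    exact (Commute.refl h).pow_left _
  have h2 : E (s h) a * E h a = 1 := by
    rw [E, E, ← hcm.mul_pow, hsh, one_pow]
  have h3 : E h a * E h (-a) = 1 := by rw [← E_add hh, add_neg_cancel, E_zero]
  rw [h1]
  calc E (s h) a = E (s h) a * (E h a * E h (-a)) := by rw [h3, mul_one]
    _ = E h (-a) := by rw [← mul_assoc, h2, one_mul]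

theorem star_P (hr : (r : F) ≠ 0) {s : 𝓐 →+ 𝓐} (hs : ∀ x y, s (x * y) = s y * s x) (hs1 : s 1 = 1) (hh : h ^ r = 1)
    (hsh : s h * h = 1) : s (P F r h) = P F r h := by
  have h1 : (r : F) • P F r h = ∑ j : ZMod r, E h j := by
    rw [P, smul_smul, mul_inv_cancel₀ hr, one_smul]
  have h2 : (r : F) • s (P F r h) = ∑ j : ZMod r, E h j := by
    rw [Nat.cast_smul_eq_nsmul, ← map_nsmul, ← Nat.cast_smul_eq_nsmul F, h1, map_sum,
      sum_congr rfl fun j _ => star_E hs hs1 hh hsh j]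
    exact Fintype.sum_equiv (Equiv.neg (ZMod r)) _ _ fun j => rfl
  rw [← h1] at h2
  calc s (P F r h) = (r : F)⁻¹ • ((r : F) • s (P F r h)) := by rw [smul_smul, inv_mul_cancel₀ hr, one_smul]
    _ = P F r h := by rw [h2, smul_smul, inv_mul_cancel₀ hr, one_smul]

theorem star_J (hr : (r : F) ≠ 0) {s : 𝓐 →+ 𝓐} (hs : ∀ x y, s (x * y) = s y * s x) (hs1 : s 1 = 1) (hh : h ^ r = 1)
    (hkr : k ^ r = 1) (hsh : s h * h = 1) (hsk : s k * k = 1) : s (J F r h k) = J F r h k := by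
  rw [J, map_sum]
  refine Fintype.sum_equiv (Equiv.neg (ZMod r)) _ _ fun i => ?_
  rw [hs, hs, star_E hs hs1 hkr hsk, star_P hr hs hs1 hh hsh, mul_assoc, Equiv.neg_apply]

end alg

section main

variable {F 𝓐 : Type*} [Field F] [Ring 𝓐] [Nontrivial 𝓐] [Algebra F 𝓐] {r : ℕ}

/-- commutator scalars are `r`-th roots of unity -/
theorem root_of {h k : 𝓐ˣ} {c : F} (hh : h ^ r = 1) (hk : (h : 𝓐) * k = c • ((k : 𝓐) * h)) : c ^ r = 1 := by
  have h1 := pow_comm hk r 1
  have h2 : ((h : 𝓐)) ^ r = 1 := by rw [← Units.val_pow_eq_pow_val, hh, Units.val_one]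
  rw [h2, pow_one, one_mul, mul_one, mul_one] at h1
  have h3 : (c ^ r - 1) • (k : 𝓐) = 0 := by rw [sub_smul, one_smul, ← h1, sub_self]
  rcases smul_eq_zero.1 h3 with h4 | h4
  · exact sub_eq_zero.1 h4
  · exact absurd h4 k.ne_zero

/-- **The inverting element.** -/
theorem exists_inv [NeZero r] (hrp : r.Prime) (hr : (r : F) ≠ 0) (n : ℕ) : ∀ (X : Subgroup 𝓐ˣ) [Finite X],
    Nat.card X ≤ n → (∀ u ∈ X, u ^ r = 1) → (∀ u ∈ X, ∀ v ∈ X, ∃ c : F, (u : 𝓐) * v = c • ((v : 𝓐) * u)) →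
    (∀ z ∈ X, (∀ u ∈ X, z * u = u * z) → ∃ c : F, (z : 𝓐) = c • (1 : 𝓐)) →
    ∃ g : 𝓐, g * g = 1 ∧ (∀ u ∈ X, ∃ c : F, c ≠ 0 ∧ (u : 𝓐) * g * u = c • g) ∧
      (∀ x : 𝓐, (∀ u ∈ X, Commute x (u : 𝓐)) → Commute x g) ∧
      (∀ s : 𝓐 →+ 𝓐, (∀ x y, s (x * y) = s y * s x) → s 1 = 1 → (∀ u ∈ X, s (u : 𝓐) * u = 1) → s g = g) := by
  induction n with
  | zero =>
    intro X _ hX
    exact absurd hX (by have := Nat.card_pos (α := X); omega)
  | succ n ih =>
    intro X _ hX h1 h2 h3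
    by_cases hcom : ∀ h ∈ X, ∀ k ∈ X, h * k = k * h
    · refine ⟨1, one_mul 1, fun u hu => ?_, fun x _ => Commute.one_right x, fun s _ h _ => h⟩
      obtain ⟨c, hc⟩ := h3 u hu (hcom u hu)
      refine ⟨c * c, ?_, ?_⟩
      · intro h4
        have h5 : c = 0 := mul_self_eq_zero.1 h4
        rw [h5, zero_smul] at hc
        exact u.ne_zero hc
      · rw [hc, mul_one, smul_mul_smul_comm, one_mul]
    push Not at hcom
    obtain ⟨h, hh, k, hk, hne⟩ := hcom
    obtain ⟨c, hc⟩ := h2 h hh k hk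
    have hc1 : c ≠ 1 := by
      rintro rfl
      rw [one_smul] at hc
      exact hne (Units.ext hc)
    have hcr : c ^ r = 1 := root_of (h1 h hh) hc
    have hhr : (h : 𝓐) ^ r = 1 := by rw [← Units.val_pow_eq_pow_val, h1 h hh, Units.val_one]
    have hkr : (k : 𝓐) ^ r = 1 := by rw [← Units.val_pow_eq_pow_val, h1 k hk, Units.val_one]
    -- the centralizer
    let X₁ : Subgroup 𝓐ˣ := X ⊓ Subgroup.centralizer ({h, k} : Set 𝓐ˣ)
    have hm : ∀ u : 𝓐ˣ, u ∈ X₁ ↔ u ∈ X ∧ u * h = h * u ∧ u * k = k * u := by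
      intro u
      rw [Subgroup.mem_inf, Subgroup.mem_centralizer_iff]
      constructor
      · rintro ⟨h4, h5⟩
        exact ⟨h4, (h5 h (by simp)).symm, (h5 k (by simp)).symm⟩
      · rintro ⟨h4, h5, h6⟩
        refine ⟨h4, ?_⟩
        rintro x (rfl | rfl)
        · exact h5.symm
        · exact h6.symm
    have hle : X₁ ≤ X := inf_le_left
    have hlt : X₁ < X := by
      refine lt_of_le_of_ne hle ?_
      intro h4
      have h5 : h ∈ X₁ := by rw [h4]; exact hh
      exact hne ((hm h).1 h5).2.2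
    have : Finite X₁ := Finite.of_injective _ (Subgroup.inclusion_injective hle)
    have hcard : Nat.card X₁ ≤ n := by
      have h4 : Nat.card X₁ < Nat.card X := by
        have := Set.ncard_lt_ncard (SetLike.coe_ssubset_coe.2 hlt) (Set.toFinite (X : Set 𝓐ˣ))
        rwa [← Nat.card_coe_set_eq, ← Nat.card_coe_set_eq] at this
      omega
    -- every element is a product
    have hdec : ∀ u ∈ X, ∃ m l : ℕ, h ^ m * k ^ l * u ∈ X₁ := by
      intro u hu
      obtain ⟨a, ha⟩ := h2 h hh u hu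
      obtain ⟨b, hb⟩ := h2 k hk u hu
      have har : a ^ r = 1 := root_of (h1 h hh) ha
      have hbr : b ^ r = 1 := root_of (h1 k hk) hb
      have hprim : IsPrimitiveRoot c r := by
        have h4 : orderOf c = r := by
          rcases (Nat.dvd_prime hrp).1 (orderOf_dvd_of_pow_eq_one hcr) with h4 | h4
          · exact absurd (orderOf_eq_one_iff.1 h4) hc1
          · exact h4
        rw [← h4]
        exact IsPrimitiveRoot.orderOf c
      obtain ⟨l, -, hl⟩ := hprim.eq_pow_of_pow_eq_one (ξ := a⁻¹) (by rw [inv_pow, har, inv_one])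
      obtain ⟨m, -, hm'⟩ := hprim.eq_pow_of_pow_eq_one (ξ := b) hbr
      have ha0 : a ≠ 0 := by
        rintro rfl
        rw [zero_pow hrp.ne_zero] at har
        exact zero_ne_one har
      have hc0 : c ≠ 0 := by
        rintro rfl
        rw [zero_pow hrp.ne_zero] at hcr
        exact zero_ne_one hcr
      refine ⟨m, l, (hm _).2 ⟨X.mul_mem (X.mul_mem (X.pow_mem hh _) (X.pow_mem hk _)) hu, ?_, ?_⟩⟩
      · apply Units.ext
        push_cast
        have e1 : (h : 𝓐) * (k : 𝓐) ^ l = c ^ l • ((k : 𝓐) ^ l * h) := by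
          have := pow_comm hc 1 l
          rwa [pow_one, one_mul] at this
        symm
        calc (h : 𝓐) * ((h : 𝓐) ^ m * (k : 𝓐) ^ l * u) = (h : 𝓐) ^ m * ((h : 𝓐) * (k : 𝓐) ^ l) * u := by
              rw [← mul_assoc, ← mul_assoc, ← pow_succ', pow_succ]
              simp only [mul_assoc]
          _ = c ^ l • ((h : 𝓐) ^ m * (k : 𝓐) ^ l * ((h : 𝓐) * u)) := by
              rw [e1]
              simp only [smul_mul_assoc, mul_smul_comm, mul_assoc]
          _ = (h : 𝓐) ^ m * (k : 𝓐) ^ l * u * h := by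
              rw [ha, mul_smul_comm, smul_smul, hl, inv_mul_cancel₀ ha0, one_smul]
              simp only [mul_assoc]
      · apply Units.ext
        push_cast
        have e1 : (h : 𝓐) ^ m * (k : 𝓐) = c ^ m • ((k : 𝓐) * (h : 𝓐) ^ m) := by
          have := pow_comm hc m 1
          rwa [pow_one, mul_one] at this
        have e2 : (k : 𝓐) * (h : 𝓐) ^ m = (c ^ m)⁻¹ • ((h : 𝓐) ^ m * k) := by
          rw [e1, smul_smul, inv_mul_cancel₀ (pow_ne_zero _ hc0), one_smul]
        symm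
        calc (k : 𝓐) * ((h : 𝓐) ^ m * (k : 𝓐) ^ l * u) = ((k : 𝓐) * (h : 𝓐) ^ m) * (k : 𝓐) ^ l * u := by
              simp only [mul_assoc]
          _ = (c ^ m)⁻¹ • ((h : 𝓐) ^ m * (k : 𝓐) ^ l * ((k : 𝓐) * u)) := by
              rw [e2]
              simp only [smul_mul_assoc, mul_assoc]
              rw [← mul_assoc (k : 𝓐) ((k : 𝓐) ^ l), ← pow_succ', pow_succ]
              simp only [mul_assoc]
          _ = (h : 𝓐) ^ m * (k : 𝓐) ^ l * u * k := by
              rw [hb, mul_smul_comm, smul_smul, hm', inv_mul_cancel₀ (by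
                rw [← hm']
                exact pow_ne_zero _ hc0), one_smul]
              simp only [mul_assoc]
    obtain ⟨g₁, e1, e2, e3, e4⟩ := ih X₁ hcard (fun u hu => h1 u (hle hu)) (fun u hu v hv => h2 u (hle hu) v (hle hv)) (by
      intro z hz hzc
      refine h3 z (hle hz) fun u hu => ?_
      obtain ⟨m, l, hml⟩ := hdec u hu
      have h4 := hzc _ hml
      have h5 : Commute z (h ^ m * k ^ l) :=
        (Commute.pow_right ((hm z).1 hz).2.1 m).mul_right (Commute.pow_right ((hm z).1 hz).2.2 l)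
      have h6 : Commute z ((h ^ m * k ^ l)⁻¹ * (h ^ m * k ^ l * u)) := h5.inv_right.mul_right h4
      rwa [inv_mul_cancel_left] at h6)
    have hJ1 : ∀ u ∈ X₁, Commute (J F r (h : 𝓐) k) (u : 𝓐) := fun u hu => by
      have h4 := (hm u).1 hu
      exact (J_commute (congrArg Units.val h4.2.1) (congrArg Units.val h4.2.2)).symm
    have hJg : Commute (J F r (h : 𝓐) k) g₁ := e3 _ hJ1
    have hhg : Commute (h : 𝓐) g₁ := e3 _ fun u hu => (congrArg Units.val ((hm u).1 hu).2.1).symm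
    have hkg : Commute (k : 𝓐) g₁ := e3 _ fun u hu => (congrArg Units.val ((hm u).1 hu).2.2).symm
    have hJJ := J_sq hrp hr hhr hkr hc hcr hc1
    have hgg : J F r (h : 𝓐) k * g₁ * (J F r (h : 𝓐) k * g₁) = 1 := by
      rw [mul_assoc, ← mul_assoc g₁, ← hJg.eq, mul_assoc, e1, mul_one, hJJ]
    have hg0 : J F r (h : 𝓐) k * g₁ ≠ 0 := by
      intro h4
      rw [h4, mul_zero] at hgg
      exact zero_ne_one hgg
    -- the elements inverted by `g`
    have gmul : ∀ u ∈ X, ∀ v ∈ X, (∃ c : F, c ≠ 0 ∧ (u : 𝓐) * (J F r (h : 𝓐) k * g₁) * u = c • (J F r (h : 𝓐) k * g₁)) →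
        (∃ c : F, c ≠ 0 ∧ (v : 𝓐) * (J F r (h : 𝓐) k * g₁) * v = c • (J F r (h : 𝓐) k * g₁)) →
        ∃ c : F, c ≠ 0 ∧ ((u * v : 𝓐ˣ) : 𝓐) * (J F r (h : 𝓐) k * g₁) * (u * v : 𝓐ˣ) = c • (J F r (h : 𝓐) k * g₁) := by
      rintro u hu v hv ⟨a, ha0, ha⟩ ⟨b, hb0, hb⟩
      obtain ⟨e, he⟩ := h2 u hu v hv
      have he0 : e ≠ 0 := by
        rintro rfl
        rw [zero_smul, ← Units.val_mul] at he
        exact (u * v).ne_zero he
      refine ⟨e * (b * a), mul_ne_zero he0 (mul_ne_zero hb0 ha0), ?_⟩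
      push_cast
      calc (u : 𝓐) * v * (J F r (h : 𝓐) k * g₁) * (u * v) = u * (v * (J F r (h : 𝓐) k * g₁)) * (e • ((v : 𝓐) * u)) := by
            rw [← he]
            simp only [mul_assoc]
        _ = e • (u * (v * (J F r (h : 𝓐) k * g₁) * v) * u) := by
            rw [mul_smul_comm]
            simp only [mul_assoc]
        _ = (e * (b * a)) • (J F r (h : 𝓐) k * g₁) := by
            rw [hb, mul_smul_comm, smul_mul_assoc, ha, smul_smul, smul_smul, mul_assoc]
    have ginv : ∀ u : 𝓐ˣ, (∃ c : F, c ≠ 0 ∧ (u : 𝓐) * (J F r (h : 𝓐) k * g₁) * u = c • (J F r (h : 𝓐) k * g₁)) →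
        ∃ c : F, c ≠ 0 ∧ ((u⁻¹ : 𝓐ˣ) : 𝓐) * (J F r (h : 𝓐) k * g₁) * (u⁻¹ : 𝓐ˣ) = c • (J F r (h : 𝓐) k * g₁) := by
      rintro u ⟨a, ha0, ha⟩
      refine ⟨a⁻¹, inv_ne_zero ha0, ?_⟩
      have h5 : J F r (h : 𝓐) k * g₁ = a⁻¹ • ((u : 𝓐) * (J F r (h : 𝓐) k * g₁) * u) := by
        rw [ha, smul_smul, inv_mul_cancel₀ ha0, one_smul]
      nth_rewrite 1 [h5]
      rw [mul_smul_comm, smul_mul_assoc]
      congr 1
      rw [mul_assoc (u : 𝓐), Units.inv_mul_cancel_left, mul_assoc, Units.mul_inv, mul_one]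
    have gone : ∃ c : F, c ≠ 0 ∧ ((1 : 𝓐ˣ) : 𝓐) * (J F r (h : 𝓐) k * g₁) * (1 : 𝓐ˣ) = c • (J F r (h : 𝓐) k * g₁) :=
      ⟨1, one_ne_zero, by rw [Units.val_one, one_mul, mul_one, one_smul]⟩
    have gh : ∃ c : F, c ≠ 0 ∧ (h : 𝓐) * (J F r (h : 𝓐) k * g₁) * h = c • (J F r (h : 𝓐) k * g₁) := by
      refine ⟨1, one_ne_zero, ?_⟩
      rw [one_smul, mul_assoc, mul_assoc, ← hhg.eq, ← mul_assoc, ← mul_assoc, mul_J_mul_h hhr hc hcr]
    have gk : ∃ c : F, c ≠ 0 ∧ (k : 𝓐) * (J F r (h : 𝓐) k * g₁) * k = c • (J F r (h : 𝓐) k * g₁) := by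
      refine ⟨1, one_ne_zero, ?_⟩
      rw [one_smul, mul_assoc, mul_assoc, ← hkg.eq, ← mul_assoc, ← mul_assoc, mul_J_mul_k hkr]
    have gpow : ∀ v ∈ X, (∃ c : F, c ≠ 0 ∧ (v : 𝓐) * (J F r (h : 𝓐) k * g₁) * v = c • (J F r (h : 𝓐) k * g₁)) →
        ∀ m : ℕ, ∃ c : F, c ≠ 0 ∧ ((v ^ m : 𝓐ˣ) : 𝓐) * (J F r (h : 𝓐) k * g₁) * (v ^ m : 𝓐ˣ) =
          c • (J F r (h : 𝓐) k * g₁) := by
      intro v hv h4 m
      induction m with
      | zero => rw [pow_zero]; exact gone
      | succ m ihm =>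
        rw [pow_succ]
        exact gmul _ (X.pow_mem hv m) v hv ihm h4
    refine ⟨J F r (h : 𝓐) k * g₁, hgg, fun u hu => ?_, fun x hx => ?_, fun s hs hs1 hsu => ?_⟩
    · obtain ⟨m, l, hml⟩ := hdec u hu
      have h4 : ∃ c : F, c ≠ 0 ∧ ((h ^ m * k ^ l * u : 𝓐ˣ) : 𝓐) * (J F r (h : 𝓐) k * g₁) * (h ^ m * k ^ l * u : 𝓐ˣ) =
          c • (J F r (h : 𝓐) k * g₁) := by
        obtain ⟨a, ha0, ha⟩ := e2 _ hml
        refine ⟨a, ha0, ?_⟩
        rw [← mul_assoc, ← (hJ1 _ hml).eq, mul_assoc, mul_assoc, ← mul_assoc _ g₁, ha, mul_smul_comm]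
      have h5 := gmul _ (X.inv_mem (X.mul_mem (X.pow_mem hh m) (X.pow_mem hk l))) _ (hle hml)
        (ginv _ (gmul _ (X.pow_mem hh m) _ (X.pow_mem hk l) (gpow h hh gh m) (gpow k hk gk l))) h4
      rwa [inv_mul_cancel_left] at h5
    · exact (J_commute (hx h hh) (hx k hk)).mul_right (e3 x fun u hu => hx u (hle hu))
    · rw [hs, e4 s hs hs1 fun u hu => hsu u (hle hu), star_J hr hs hs1 hhr hkr (hsu h hh) (hsu k hk), hJg.eq]

end main

end Cfsg.Agent.H204.IFO.Inv
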