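import Cfsg.Agent.H886.FC.Base
import Cfsg.Agent.H198.FC.DefsB
import Cfsg.Agent.H204.IFO.Inv

/-!
# S5719, block ODD: the inverting element for `C6Data`, `r` odd (helper204)

* `c6_inv` : `g ∈ SL(V)`, `g² = 1`, inverting `A`;
* `c6_inv_isom` : the same with `g` an isometry of `b`, for `S ≤ RB b`.
-/

set_option autoImplicit false
set_option linter.unusedSectionVars false

namespace Cfsg.Agent.H204.IFO.CSix

open Cfsg.Agent.H198.FC Cfsg.Agent.H886.FC Cfsg.Agent.H204.IFO.Inv Module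

universe u v

section

variable {K : Type u} [Field K] {V : Type v} [AddCommGroup V] [Module K V]

/-- the product formula in class two -/
theorem mul_pow_of {u v : (R K V)ˣ} {c : K} (hc : (u : R K V) * v = c • ((v : R K V) * u)) (n : ℕ) :
    ∃ m : ℕ, 2 * m = n * (n - 1) ∧ (u : R K V) ^ n * (v : R K V) ^ n = c ^ (m + n) • ((v : R K V) * u) ^ n := by
  induction n with
  | zero => exact ⟨0, rfl, by simp⟩
  | succ n ih =>
    obtain ⟨m, hm, h⟩ := ih
    refine ⟨m + n, ?_, ?_⟩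
    · rw [Nat.add_sub_cancel]
      rcases n with - | n
      · omega
      · rw [Nat.add_sub_cancel] at hm
        linarith [hm]
    · have h1 : (u : R K V) * (v : R K V) ^ n = c ^ n • ((v : R K V) ^ n * u) := by
        have := pow_comm hc 1 n
        rwa [pow_one, one_mul] at this
      calc (u : R K V) ^ (n + 1) * (v : R K V) ^ (n + 1) = (u : R K V) ^ n * ((u : R K V) * (v : R K V) ^ n) * v := by
            rw [pow_succ, pow_succ]
            simp only [mul_assoc]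
        _ = c ^ n • (((u : R K V) ^ n * (v : R K V) ^ n) * ((u : R K V) * v)) := by
            rw [h1]
            simp only [smul_mul_assoc, mul_smul_comm, mul_assoc]
        _ = c ^ (m + n + (n + 1)) • ((v : R K V) * u) ^ (n + 1) := by
            rw [h, hc, smul_mul_smul_comm, smul_smul, ← pow_succ]
            congr 1
            ring

/-- the scalar of a commutator -/
theorem exists_comm {A : Subgroup (Equiv.Perm (R K V))} (hA : ∀ f ∈ A, ∀ g ∈ A, f * g = g * f) {u v : (R K V)ˣ}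
    (hu : cj K V u ∈ A) (hv : cj K V v ∈ A) : ∃ c : K, (u : R K V) * v = c • ((v : R K V) * u) := by
  have h1 : cj K V (u * v * (v * u)⁻¹) = 1 := by
    rw [map_mul, map_inv, map_mul, map_mul, hA _ hu _ hv, mul_inv_cancel]
  obtain ⟨c, hc⟩ := cj_eq_one h1
  refine ⟨c, ?_⟩
  have h2 : (u : R K V) * v = ((u * v * (v * u)⁻¹ : (R K V)ˣ) : R K V) * ((v * u : (R K V)ˣ) : R K V) := by
    rw [← Units.val_mul, ← Units.val_mul, inv_mul_cancel_right]
  rw [h2, hc, smul_mul_assoc, one_mul, Units.val_mul]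

variable [Nontrivial V]

theorem scal_ne {c : K} {x : (R K V)ˣ} (h : (x : R K V) = c • (1 : R K V)) : c ≠ 0 := by
  rintro rfl
  rw [zero_smul] at h
  exact x.ne_zero h

/-- product formula, `r` odd -/
theorem mul_pow_root {r : ℕ} (hr : Odd r) {u v : (R K V)ˣ} {c : K} (hc : (u : R K V) * v = c • ((v : R K V) * u))
    (hcr : c ^ r = 1) : (u * v) ^ r = u ^ r * v ^ r := by
  have hc0 : c ≠ 0 := by
    rintro rfl
    rw [zero_smul, ← Units.val_mul] at hc
    exact (u * v).ne_zero hc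
  have hc' : (v : R K V) * u = c⁻¹ • ((u : R K V) * v) := by
    rw [hc, smul_smul, inv_mul_cancel₀ hc0, one_smul]
  obtain ⟨m, hm, h⟩ := mul_pow_of hc r
  have h2 : c ^ m = 1 := by
    obtain ⟨s, hs⟩ := hr
    have h3 : m = r * s := by
      have h4 : r - 1 = 2 * s := by omega
      rw [h4] at hm
      nlinarith
    rw [h3, pow_mul, hcr, one_pow]
  apply Units.ext
  push_cast
  rw [h, pow_add, h2, hcr, one_mul, one_smul, hc, smul_pow, hcr, one_smul]

end

section data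

variable {K : Type u} [Field K] {V : Type v} [AddCommGroup V] [Module K V] [Nontrivial V]
  {S A : Subgroup (Equiv.Perm (R K V))} {r a : ℕ}

/-- the scalars of commutators are `r`-th roots of unity -/
theorem root {u v : (R K V)ˣ} (hu : cj K V u ^ r = 1) {c : K} (hc : (u : R K V) * v = c • ((v : R K V) * u)) :
    c ^ r = 1 := by
  rw [← map_pow] at hu
  obtain ⟨d, hd⟩ := cj_eq_one hu
  have hd0 : d ≠ 0 := scal_ne hd
  have h1 := pow_comm hc r 1
  rw [pow_one, ← Units.val_pow_eq_pow_val, hd, smul_mul_assoc, one_mul, mul_smul_comm, mul_one, mul_one, smul_smul] at h1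
  have h3 : ((c ^ r - 1) * d) • (v : R K V) = 0 := by
    rw [sub_mul, one_mul, sub_smul, ← h1, sub_self]
  rcases smul_eq_zero.1 h3 with h4 | h4
  · exact sub_eq_zero.1 ((mul_eq_zero.1 h4).resolve_right hd0)
  · exact absurd h4 v.ne_zero

/-- the lifts of order `r` -/
def X (hr : Odd r) (A : Subgroup (Equiv.Perm (R K V))) (hA : ∀ f ∈ A, ∀ g ∈ A, f * g = g * f)
    (hAr : ∀ f ∈ A, f ^ r = 1) : Subgroup (R K V)ˣ where
  carrier := {u | cj K V u ∈ A ∧ u ^ r = 1}
  one_mem' := ⟨by rw [map_one]; exact A.one_mem, one_pow r⟩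
  mul_mem' := by
    rintro u v ⟨hu, hu'⟩ ⟨hv, hv'⟩
    refine ⟨by rw [map_mul]; exact A.mul_mem hu hv, ?_⟩
    obtain ⟨c, hc⟩ := exists_comm hA hu hv
    rw [mul_pow_root hr hc (root (hAr _ hu) hc), hu', hv', one_mul]
  inv_mem' := by
    rintro u ⟨hu, hu'⟩
    exact ⟨by rw [map_inv]; exact A.inv_mem hu, by rw [inv_pow, hu', inv_one]⟩

theorem mem_X (hr : Odd r) (hA : ∀ f ∈ A, ∀ g ∈ A, f * g = g * f) (hAr : ∀ f ∈ A, f ^ r = 1) {u : (R K V)ˣ} :
    u ∈ X hr A hA hAr ↔ cj K V u ∈ A ∧ u ^ r = 1 := Iff.rfl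

/-- every element of `A` has a lift of order `r` -/
theorem map_X [Finite K] [Module.Finite K V] (hS : S ≤ RA K V) (hrp : r.Prime) (hr : Odd r)
    (hA : ∀ f ∈ A, ∀ g ∈ A, f * g = g * f) (hAr : ∀ f ∈ A, f ^ r = 1) (hAI : A ≤ IN K V)
    (hn : ∀ g ∈ S, ∀ f ∈ A, g * f * g⁻¹ ∈ A) (hcard : r < Nat.card A)
    (hmin : ∀ B : Subgroup (Equiv.Perm (R K V)), B ≤ A → (∀ g ∈ S, ∀ f ∈ B, g * f * g⁻¹ ∈ B) → B = ⊥ ∨ B = A) :
    (X hr A hA hAr).map (cj K V) = A := by
  have : NeZero r := ⟨hrp.ne_zero⟩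
  have : Finite (R K V) := Module.finite_of_finite K
  rcases hmin ((X hr A hA hAr).map (cj K V)) (by
    rintro _ ⟨u, hu, rfl⟩
    exact hu.1) (by
    rintro g hg _ ⟨u, hu, rfl⟩
    have h1 : (fU g (hS hg) u) ^ r = 1 := by
      apply Units.ext
      rw [Units.val_pow_eq_pow_val]
      show (g (u : R K V)) ^ r = 1
      rw [← ra_pow (hS hg), ← Units.val_pow_eq_pow_val, hu.2, Units.val_one, ra_one (hS hg)]
    rcases (hS hg).2 with h | h
    · rw [conj_cj_rp (hS hg) h]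
      exact ⟨_, ⟨fU_mem (hS hg) (hn g hg) hu.1, h1⟩, rfl⟩
    · rw [conj_cj_anti (hS hg) h, ← map_inv]
      exact ⟨_, (X hr A hA hAr).inv_mem ⟨fU_mem (hS hg) (hn g hg) hu.1, h1⟩, rfl⟩) with h0 | h0
  swap
  · exact h0
  exfalso
  -- pigeonhole
  obtain ⟨γ, hγ⟩ := IsCyclic.exists_generator (α := Kˣ)
  have hlift : ∀ f : A, ∃ (x : (R K V)ˣ) (m : ℕ), cj K V x = f ∧ ((x ^ r : (R K V)ˣ) : R K V) =
      ((γ ^ m : Kˣ) : K) • (1 : R K V) := by
    rintro ⟨f, hf⟩
    obtain ⟨x, hx⟩ := hAI hf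
    have h1 : cj K V (x ^ r) = 1 := by rw [map_pow, hx, hAr f hf]
    obtain ⟨c, hc⟩ := cj_eq_one h1
    have hc0 : c ≠ 0 := scal_ne hc
    obtain ⟨m, hm⟩ : ∃ m : ℕ, γ ^ m = Units.mk0 c hc0 := by
      have h2 := hγ (Units.mk0 c hc0)
      rw [← mem_powers_iff_mem_zpowers] at h2
      exact Submonoid.mem_powers_iff _ _ |>.1 h2
    refine ⟨x, m, hx, ?_⟩
    rw [hm, hc, Units.val_mk0]
  choose x m hx hm using hlift
  have hinj : Function.Injective fun f : A => (m f : ZMod r) := by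
    intro f g hfg
    have h1 : ∃ t : ℤ, (m f : ℤ) - m g = r * t := by
      have h2 : ((m f : ℤ) : ZMod r) = ((m g : ℤ) : ZMod r) := by simpa using hfg
      exact (ZMod.intCast_eq_intCast_iff_dvd_sub _ _ _).1 h2.symm
    obtain ⟨t, ht⟩ := h1
    -- the corrected quotient
    have hs : ∀ e : Kˣ, ∃ y : (R K V)ˣ, (y : R K V) = (e : K) • (1 : R K V) := fun e =>
      ⟨⟨(e : K) • 1, ((e⁻¹ : Kˣ) : K) • 1, by rw [smul_mul_smul_comm, ← Units.val_mul, mul_inv_cancel, one_mul,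
        Units.val_one, one_smul], by rw [smul_mul_smul_comm, ← Units.val_mul, inv_mul_cancel, one_mul,
        Units.val_one, one_smul]⟩, rfl⟩
    obtain ⟨y, hy⟩ := hs (γ ^ (-t))
    have hxf : cj K V (x f) ∈ A := by rw [hx]; exact f.2
    have hxg : cj K V (x g)⁻¹ ∈ A := by rw [map_inv, hx]; exact A.inv_mem g.2
    have hyc : cj K V y = 1 := cj_scalar hy
    obtain ⟨c, hc⟩ := exists_comm hA hxf hxg
    have h3 : (x f * (x g)⁻¹) ^ r = x f ^ r * (x g)⁻¹ ^ r := mul_pow_root hr hc (root (hAr _ hxf) hc)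
    have hyC : ∀ z : (R K V)ˣ, y * z = z * y := by
      intro z
      apply Units.ext
      rw [Units.val_mul, Units.val_mul, hy, smul_mul_assoc, one_mul, mul_smul_comm, mul_one]
    have h4 : (y * (x f * (x g)⁻¹)) ^ r = 1 := by
      rw [(show Commute y (x f * (x g)⁻¹) from hyC _).mul_pow, h3, inv_pow, ← mul_assoc, mul_inv_eq_one]
      apply Units.ext
      rw [Units.val_mul, Units.val_pow_eq_pow_val, hy, hm, hm, smul_pow, one_pow, smul_mul_smul_comm, mul_one,
        ← Units.val_pow_eq_pow_val, ← Units.val_mul]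
      congr 2
      rw [← zpow_natCast, ← zpow_mul, ← zpow_natCast, ← zpow_add, ← zpow_natCast]
      congr 1
      linarith [mul_comm (r : ℤ) t]
    have h5 : cj K V (y * (x f * (x g)⁻¹)) ∈ (X hr A hA hAr).map (cj K V) := by
      refine ⟨_, ⟨?_, h4⟩, rfl⟩
      rw [map_mul, hyc, one_mul, map_mul]
      exact A.mul_mem hxf hxg
    rw [h0, Subgroup.mem_bot, map_mul, hyc, one_mul, map_mul, map_inv, hx, hx, mul_inv_eq_one] at h5
    exact Subtype.ext h5
  have h6 := Nat.card_le_card_of_injective _ hinj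
  rw [Nat.card_zmod] at h6
  omega

/-- an element commuting with the lifts of order `r` is a scalar -/
theorem central_of {hr : Odd r} {hA : ∀ f ∈ A, ∀ g ∈ A, f * g = g * f} {hAr : ∀ f ∈ A, f ^ r = 1}
    (hX : (X hr A hA hAr).map (cj K V) = A)
    (hsp : Submodule.span K {X : R K V | ∃ x : (R K V)ˣ, (x : R K V) = X ∧ cj K V x ∈ A} = ⊤) {z : R K V}
    (hz : ∀ u ∈ X hr A hA hAr, z * (u : R K V) = u * z) : ∃ c : K, z = c • (1 : R K V) := by
  apply exists_scalar_of_central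
  intro Y
  have hY : Y ∈ Submodule.span K {X : R K V | ∃ x : (R K V)ˣ, (x : R K V) = X ∧ cj K V x ∈ A} := by
    rw [hsp]; trivial
  induction hY using Submodule.span_induction with
  | mem Y hY =>
    obtain ⟨x, rfl, hx⟩ := hY
    rw [← hX] at hx
    obtain ⟨u, hu, hux⟩ := hx
    have h1 : cj K V (x * u⁻¹) = 1 := by rw [map_mul, map_inv, hux, mul_inv_cancel]
    obtain ⟨c, hc⟩ := cj_eq_one h1
    have h2 : (x : R K V) = c • (u : R K V) := by
      have h3 : (x : R K V) = ((x * u⁻¹ : (R K V)ˣ) : R K V) * u := by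
        rw [← Units.val_mul, inv_mul_cancel_right]
      rw [h3, hc, smul_mul_assoc, one_mul]
    rw [h2, mul_smul_comm, smul_mul_assoc, hz u hu]
  | zero => rw [mul_zero, zero_mul]
  | add Y Y' _ _ h h' => rw [mul_add, add_mul, h, h']
  | smul c Y _ h => rw [mul_smul_comm, smul_mul_assoc, h]

omit [Nontrivial V] in
theorem nontrivial_of (h : C6Data S A r a) : Nontrivial V := by
  apply Module.nontrivial_of_finrank_pos (R := K)
  rw [h.2.2.1]
  exact pow_pos h.1.pos _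

theorem card_lt (h : C6Data S A r a) : r < Nat.card A := by
  rw [h.2.2.2.2.2.1]
  calc r < r ^ 2 := by nlinarith [h.1.two_le]
    _ ≤ r ^ (2 * a) := Nat.pow_le_pow_right h.1.pos (by have := h.2.1; omega)

theorem map_X' [Finite K] [Module.Finite K V] (hS : S ≤ RA K V) (h : C6Data S A r a) (hr : Odd r) :
    (X hr A h.2.2.2.2.2.2.2.1 h.2.2.2.2.2.2.1).map (cj K V) = A :=
  map_X hS h.1 hr _ _ h.2.2.2.2.1 h.2.2.2.2.2.2.2.2.2.1 (card_lt h) h.2.2.2.2.2.2.2.2.2.2

/-- the lifts of order `r` do not commute -/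
theorem exists_noncomm [Finite K] [Module.Finite K V] (hS : S ≤ RA K V) (h : C6Data S A r a) (hr : Odd r) :
    ∃ u : (R K V)ˣ, cj K V u ∈ A ∧ u ^ r = 1 ∧ ∃ v : (R K V)ˣ, cj K V v ∈ A ∧ v ^ r = 1 ∧
      ∃ c : K, (u : R K V) * v = c • ((v : R K V) * u) ∧ c ^ r = 1 ∧ c ≠ 1 := by
  by_contra hcon
  push Not at hcon
  have hAr := h.2.2.2.2.2.2.1
  have hA := h.2.2.2.2.2.2.2.1
  have h1 : ∀ f ∈ A, f = 1 := by
    intro f hf
    rw [← map_X' hS h hr] at hf
    obtain ⟨u, hu, rfl⟩ := hf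
    obtain ⟨c, hc⟩ := central_of (z := (u : R K V)) (map_X' hS h hr) h.2.2.2.2.2.2.2.2.1 fun v hv => by
      obtain ⟨c, hc⟩ := exists_comm hA hu.1 hv.1
      have hcr := root (hAr _ hu.1) hc
      rw [hcon u hu.1 hu.2 v hv.1 hv.2 c hc hcr, one_smul] at hc
      exact hc
    exact cj_scalar hc
  have h2 : Nat.card A = 1 := by
    rw [Nat.card_eq_one_iff_unique]
    exact ⟨⟨fun x y => Subtype.ext (by rw [h1 x x.2, h1 y y.2])⟩, ⟨1⟩⟩
  have h3 := card_lt h
  have h4 := h.1.two_le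
  omega

theorem cast_ne [Finite K] [Module.Finite K V] (hS : S ≤ RA K V) (h : C6Data S A r a) (hr : Odd r) : (r : K) ≠ 0 := by
  intro h0
  obtain ⟨u, -, -, v, -, -, c, -, hcr, hc1⟩ := exists_noncomm hS h hr
  have : Fact r.Prime := ⟨h.1⟩
  have h1 : ringChar K ∣ r := (ringChar.spec K r).1 h0
  have h2 : ringChar K = r := by
    rcases (Nat.dvd_prime h.1).1 h1 with h2 | h2
    · exact absurd h2 (CharP.ringChar_ne_one (R := K))
    · exact h2
  have : CharP K r := ringChar.of_eq h2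
  have h3 : (c - 1) ^ r = 0 := by rw [sub_pow_char, hcr, one_pow, sub_self]
  exact hc1 (sub_eq_zero.1 (pow_eq_zero_iff h.1.ne_zero |>.1 h3))

/-- the inverting element, general form -/
theorem c6_core [Finite K] [Module.Finite K V] (hS : S ≤ RA K V) (h : C6Data S A r a) (hr : Odd r) :
    ∃ g : R K V, g * g = 1 ∧
      (∀ u : (R K V)ˣ, cj K V u ∈ A → u ^ r = 1 → ∃ c : K, c ≠ 0 ∧ (u : R K V) * g * u = c • g) ∧
      (∀ s : R K V →+ R K V, (∀ x y, s (x * y) = s y * s x) → s 1 = 1 →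
        (∀ u : (R K V)ˣ, cj K V u ∈ A → u ^ r = 1 → s (u : R K V) * u = 1) → s g = g) := by
  have : NeZero r := ⟨h.1.ne_zero⟩
  have : Finite (R K V) := Module.finite_of_finite K
  have hAr := h.2.2.2.2.2.2.1
  have hA := h.2.2.2.2.2.2.2.1
  obtain ⟨g, e1, e2, -, e4⟩ := exists_inv (F := K) h.1 (cast_ne hS h hr) _ (X hr A hA hAr) le_rfl (fun u hu => hu.2)
    (fun u hu v hv => exists_comm hA hu.1 hv.1) (fun z hz hzc => central_of (map_X' hS h hr) h.2.2.2.2.2.2.2.2.1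
      fun u hu => congrArg Units.val (hzc u hu))
  exact ⟨g, e1, fun u hu hu' => e2 u ⟨hu, hu'⟩, fun s hs hs1 hsu => e4 s hs hs1 fun u hu => hsu u hu.1 hu.2⟩

theorem inverts [Finite K] [Module.Finite K V] (hS : S ≤ RA K V) (h : C6Data S A r a) (hr : Odd r) {g : (R K V)ˣ}
    (hg : g * g = 1) (hgu : ∀ u : (R K V)ˣ, cj K V u ∈ A → u ^ r = 1 → ∃ c : K, c ≠ 0 ∧ (u : R K V) * g * u = c • (g : R K V))
    {f : Equiv.Perm (R K V)} (hf : f ∈ A) : cj K V g * f * (cj K V g)⁻¹ = f⁻¹ := by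
  rw [← map_X' hS h hr] at hf
  obtain ⟨u, hu, rfl⟩ := hf
  obtain ⟨c, -, hc⟩ := hgu u hu.1 hu.2
  rw [eq_inv_iff_mul_eq_one, ← map_inv, ← map_mul, ← map_mul, ← map_mul]
  have hgi : g⁻¹ = g := inv_eq_of_mul_eq_one_left hg
  refine cj_scalar (c := c) ?_
  rw [hgi]
  push_cast
  calc (g : R K V) * u * g * u = g * ((u : R K V) * g * u) := by simp only [mul_assoc]
    _ = c • (1 : R K V) := by rw [hc, mul_smul_comm, ← Units.val_mul, hg, Units.val_one]

end data

/-- **The inverting element of determinant one.** -/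
theorem c6_inv {K : Type u} [Field K] [Finite K] {V : Type v} [AddCommGroup V] [Module K V] [Module.Finite K V]
    {S A : Subgroup (Equiv.Perm (R K V))} {r a : ℕ} (hS : S ≤ RA K V) (h : C6Data S A r a) (hr2 : r ≠ 2) :
    ∃ g : (R K V)ˣ, g * g = 1 ∧ LinearMap.det (g : R K V) = 1 ∧
      ∀ f ∈ A, cj K V g * f * (cj K V g)⁻¹ = f⁻¹ := by
  have : Nontrivial V := nontrivial_of h
  have hr : Odd r := h.1.odd_of_ne_two hr2
  obtain ⟨g, e1, e2, -⟩ := c6_core hS h hr
  have hd : LinearMap.det g * LinearMap.det g = 1 := by rw [← map_mul, e1, map_one]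
  have hd0 : LinearMap.det g ≠ 0 := fun h0 => by
    rw [h0, mul_zero] at hd
    exact zero_ne_one hd
  have e1' : (LinearMap.det g • g) * (LinearMap.det g • g) = 1 := by
    rw [smul_mul_smul_comm, hd, one_smul, e1]
  let g' : (R K V)ˣ := ⟨LinearMap.det g • g, LinearMap.det g • g, e1', e1'⟩
  have hg' : g' * g' = 1 := Units.ext e1'
  refine ⟨g', hg', ?_, fun f hf => inverts hS h hr hg' (fun u hu hu' => ?_) hf⟩
  · show LinearMap.det (LinearMap.det g • g) = 1
    rw [LinearMap.det_smul, h.2.2.1]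
    obtain ⟨s, hs⟩ := hr.pow (n := a)
    rw [hs, pow_succ, pow_mul, pow_two, hd, one_pow, one_mul, hd]
  · obtain ⟨c, hc0, hc⟩ := e2 u hu hu'
    refine ⟨c, hc0, ?_⟩
    show (u : R K V) * (LinearMap.det g • g) * u = c • (LinearMap.det g • g)
    rw [mul_smul_comm, smul_mul_assoc, hc, smul_comm]

end Cfsg.Agent.H204.IFO.CSix
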