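import Cfsg.Agent.H886.FC.ClassB
import Cfsg.Agent.H204.IFO.CSix

/-!
# S5719, block ODD: the inverting element for `C6Data`, `r` odd, is an isometry (helper204)
-/

set_option autoImplicit false
set_option linter.unusedSectionVars false

namespace Cfsg.Agent.H204.IFO.CSix

open Cfsg.Agent.H198.FC Cfsg.Agent.H886.FC Cfsg.Agent.H204.IFO.Inv Module

universe u v

section

variable {K : Type u} [Field K] {V : Type v} [AddCommGroup V] [Module K V] [Nontrivial V] {b : Cl K V}
  {S A : Subgroup (Equiv.Perm (R K V))} {r a : ℕ}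

theorem adj_smul (c : K) {X Y : R K V} (h : b.Adj X Y) : b.Adj (c • X) (b.τ c • Y) := by
  intro v w
  rw [LinearMap.smul_apply, LinearMap.smul_apply, b.smul_left, b.smul_right, b.invol, h]

/-- the lifts of order `r` are isometries -/
theorem st_mul [Finite K] [Module.Finite K V] (hS : S ≤ RB b) (h : C6Data S A r a) (hr : Odd r)
    {st : Equiv.Perm (R K V)} (hst : ∀ X, b.Adj X (st X)) (hmul : ∀ X Y, st (X * Y) = st Y * st X)
    {u : (R K V)ˣ} (hu : cj K V u ∈ A) (hur : u ^ r = 1) : st (u : R K V) * u = 1 := by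
  have hSA : S ≤ RA K V := hS.trans fun f hf => RP_le_RA hf.1
  have hst1 : st 1 = 1 := adj_unique b (hst 1) (fun v w => rfl)
  have hsmul : ∀ (c : K) (X : R K V), st (c • X) = b.τ c • st X := fun c X =>
    adj_unique b (hst (c • X)) (adj_smul c (hst X))
  have hsurj : ∀ X : R K V, st (st X) = X := fun X => adj_unique b (hst (st X)) (adj_symm b (hst X))
  -- `st u * u` is a scalar
  have hsc : ∀ u : (R K V)ˣ, cj K V u ∈ A → u ^ r = 1 →
      ∃ μ : K, st (u : R K V) * u = μ • (1 : R K V) ∧ μ ^ r = 1 ∧ b.τ μ = μ := by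
    intro u hu hur
    have hRB : ∀ X : R K V, st (u * X * (u⁻¹ : (R K V)ˣ)) = u * st X * (u⁻¹ : (R K V)ˣ) := by
      intro X
      have h1 := ((hS (h.2.2.2.1 hu)).2 X (st X)).1 (hst X)
      rw [cj_apply, cj_apply] at h1
      exact adj_unique b (hst _) h1
    have huu : st ((u⁻¹ : (R K V)ˣ) : R K V) * st (u : R K V) = 1 := by
      rw [← hmul, u.mul_inv, hst1]
    have huu' : st (u : R K V) * st ((u⁻¹ : (R K V)ˣ) : R K V) = 1 := by
      rw [← hmul, u.inv_mul, hst1]
    obtain ⟨μ, hμ⟩ := exists_scalar_of_central (st (u : R K V) * (u : R K V)) (by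
      intro Y
      have h1 := hRB (st Y)
      rw [hmul, hmul, hsurj] at h1
      -- `st u⁻¹ * (Y * st u) = u * Y * u⁻¹`
      calc st (u : R K V) * u * Y = st (u : R K V) * (u * Y * (u⁻¹ : (R K V)ˣ)) * u := by
            simp only [mul_assoc]
            rw [u.inv_mul, mul_one]
        _ = st (u : R K V) * (st ((u⁻¹ : (R K V)ˣ) : R K V) * (Y * st (u : R K V))) * u := by rw [h1]
        _ = Y * (st (u : R K V) * u) := by
            rw [← mul_assoc (st (u : R K V)), huu', one_mul, mul_assoc])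
    refine ⟨μ, hμ, ?_, ?_⟩
    · have h1 : st (u : R K V) = μ • ((u⁻¹ : (R K V)ˣ) : R K V) := by
        calc st (u : R K V) = st (u : R K V) * u * (u⁻¹ : (R K V)ˣ) := by rw [mul_assoc, u.mul_inv, mul_one]
          _ = μ • ((u⁻¹ : (R K V)ˣ) : R K V) := by rw [hμ, smul_mul_assoc, one_mul]
      have h2 : st (u : R K V) ^ r = 1 := by
        have h3 : ∀ n : ℕ, st ((u : R K V) ^ n) = st (u : R K V) ^ n := by
          intro n
          induction n with
          | zero => rw [pow_zero, pow_zero, hst1]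
          | succ n ih => rw [pow_succ, hmul, ih, ← pow_succ']
        rw [← h3, ← Units.val_pow_eq_pow_val, hur, Units.val_one, hst1]
      rw [h1, smul_pow, ← Units.val_pow_eq_pow_val, inv_pow, hur, inv_one, Units.val_one] at h2
      have h3 : (μ ^ r - 1) • (1 : R K V) = 0 := by rw [sub_smul, h2, one_smul, sub_self]
      exact sub_eq_zero.1 ((smul_eq_zero.1 h3).resolve_right one_ne_zero)
    · have h1 : st (st (u : R K V) * u) = st (u : R K V) * u := by rw [hmul, hsurj]
      rw [hμ, hsmul, hst1] at h1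
      have h3 : (b.τ μ - μ) • (1 : R K V) = 0 := by rw [sub_smul, h1, sub_self]
      exact sub_eq_zero.1 ((smul_eq_zero.1 h3).resolve_right one_ne_zero)
  -- a commutator scalar
  obtain ⟨x, hx, hxr, y, hy, hyr, c, hc, hcr, hc1⟩ := exists_noncomm hSA h hr
  have hc0 : c ≠ 0 := by
    rintro rfl
    rw [zero_pow h.1.ne_zero] at hcr
    exact zero_ne_one hcr
  have hτc : b.τ c * c = 1 := by
    obtain ⟨μ, hμ, hμr, -⟩ := hsc x hx hxr
    obtain ⟨ν, hν, hνr, -⟩ := hsc y hy hyr
    have hμ0 : μ ≠ 0 := by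
      rintro rfl
      rw [zero_pow h.1.ne_zero] at hμr
      exact zero_ne_one hμr
    have hν0 : ν ≠ 0 := by
      rintro rfl
      rw [zero_pow h.1.ne_zero] at hνr
      exact zero_ne_one hνr
    -- evaluate `st (x y) (x y)` in two ways
    have h1 : st ((x : R K V) * y) * (x * y) = (μ * ν) • (1 : R K V) := by
      rw [hmul]
      calc st (y : R K V) * st (x : R K V) * (x * y) = st (y : R K V) * (st (x : R K V) * x) * y := by
            simp only [mul_assoc]
        _ = (μ * ν) • (1 : R K V) := by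
            rw [hμ, mul_smul_comm, mul_one, smul_mul_assoc, hν, smul_smul]
    have h2 : st ((y : R K V) * x) * (y * x) = (μ * ν) • (1 : R K V) := by
      rw [hmul]
      calc st (x : R K V) * st (y : R K V) * (y * x) = st (x : R K V) * (st (y : R K V) * y) * x := by
            simp only [mul_assoc]
        _ = (μ * ν) • (1 : R K V) := by
            rw [hν, mul_smul_comm, mul_one, smul_mul_assoc, hμ, smul_smul, mul_comm]
    rw [hc, hsmul, smul_mul_smul_comm, h2] at h1
    have h3 : ((b.τ c * c - 1) * (μ * ν)) • (1 : R K V) = 0 := by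
      rw [sub_mul, one_mul, sub_smul, ← smul_smul, h1, sub_self]
    exact sub_eq_zero.1 ((mul_eq_zero.1 ((smul_eq_zero.1 h3).resolve_right one_ne_zero)).resolve_right
      (mul_ne_zero hμ0 hν0))
  obtain ⟨μ, hμ, hμr, hτμ⟩ := hsc u hu hur
  have hprim : IsPrimitiveRoot c r := by
    have h4 : orderOf c = r := by
      rcases (Nat.dvd_prime h.1).1 (orderOf_dvd_of_pow_eq_one hcr) with h4 | h4
      · exact absurd (orderOf_eq_one_iff.1 h4) hc1
      · exact h4
    rw [← h4]
    exact IsPrimitiveRoot.orderOf c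
  have : NeZero r := ⟨h.1.ne_zero⟩
  obtain ⟨j, -, hj⟩ := hprim.eq_pow_of_pow_eq_one hμr
  have h5 : μ * μ = 1 := by
    nth_rewrite 1 [← hτμ]
    rw [← hj, map_pow, ← mul_pow, hτc, one_pow]
  have h6 : μ = 1 := by
    obtain ⟨s, hs⟩ := hr
    rw [hs, pow_succ, pow_mul, pow_two, h5, one_pow, one_mul] at hμr
    exact hμr
  rw [hμ, h6, one_smul]

end

/-- **The inverting element of determinant one is an isometry.** -/
theorem c6_inv_isom {K : Type u} [Field K] [Finite K] {V : Type v} [AddCommGroup V] [Module K V] [Module.Finite K V]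
    {b : Cl K V} {S A : Subgroup (Equiv.Perm (R K V))} {r a : ℕ} (hS : S ≤ RB b) (h : C6Data S A r a) (hr2 : r ≠ 2) :
    ∃ g : (R K V)ˣ, g * g = 1 ∧ LinearMap.det (g : R K V) = 1 ∧ b.Isom (g : R K V) ∧
      ∀ f ∈ A, cj K V g * f * (cj K V g)⁻¹ = f⁻¹ := by
  have : Nontrivial V := nontrivial_of h
  have hr : Odd r := h.1.odd_of_ne_two hr2
  have hSA : S ≤ RA K V := hS.trans fun f hf => RP_le_RA hf.1
  obtain ⟨st, hst, -, hstA, hmul⟩ := exists_st b
  obtain ⟨g, e1, e2, e3⟩ := c6_core hSA h hr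
  have hg : st g = g := e3 (fA st hstA : R K V →+ R K V) hmul (adj_unique b (hst 1) (fun v w => rfl)) fun u hu hur =>
    st_mul hS h hr hst hmul hu hur
  have hd : LinearMap.det g * LinearMap.det g = 1 := by rw [← map_mul, e1, map_one]
  have hd' : LinearMap.det g = 1 ∨ LinearMap.det g = -1 := mul_self_eq_one_iff.1 hd
  have e1' : (LinearMap.det g • g) * (LinearMap.det g • g) = 1 := by
    rw [smul_mul_smul_comm, hd, one_smul, e1]
  let g' : (R K V)ˣ := ⟨LinearMap.det g • g, LinearMap.det g • g, e1', e1'⟩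
  have hg' : g' * g' = 1 := Units.ext e1'
  have hadj : b.Adj (LinearMap.det g • g) (LinearMap.det g • g) := by
    have h1 := adj_smul (b := b) (LinearMap.det g) (hst g)
    rw [hg] at h1
    have h2 : b.τ (LinearMap.det g) = LinearMap.det g := by
      rcases hd' with h2 | h2 <;> rw [h2] <;> simp
    rwa [h2] at h1
  refine ⟨g', hg', ?_, ?_, fun f hf => inverts hSA h hr hg' (fun u hu hu' => ?_) hf⟩
  · show LinearMap.det (LinearMap.det g • g) = 1
    rw [LinearMap.det_smul, h.2.2.1]
    obtain ⟨s, hs⟩ := hr.pow (n := a)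
    rw [hs, pow_succ, pow_mul, pow_two, hd, one_pow, one_mul, hd]
  · intro v w
    show b.B ((LinearMap.det g • g) v) ((LinearMap.det g • g) w) = b.B v w
    rw [hadj]
    have h1 : (LinearMap.det g • g) ((LinearMap.det g • g) w) = w := congrArg (fun X : R K V => X w) e1'
    rw [h1]
  · obtain ⟨c, hc0, hc⟩ := e2 u hu hu'
    refine ⟨c, hc0, ?_⟩
    show (u : R K V) * (LinearMap.det g • g) * u = c • (LinearMap.det g • g)
    rw [mul_smul_comm, smul_mul_assoc, hc, smul_comm]

end Cfsg.Agent.H204.IFO.CSix
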