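import Cfsg.Agent.H574.IFO.Kills
import Cfsg.Agent.H204.IFO.CSixB
import Cfsg.Agent.ClassicalGeometry.GUBasic

/-!
# S5719, `PSU_n(q)`, `|A|` odd: the case C6 (helper204)
-/

set_option autoImplicit false
set_option linter.unusedSectionVars false

namespace Cfsg.Agent.H204.IFO

open Matrix Subgroup Cfsg.Agent.H198.FC Cfsg.Agent.LieClassical.HermBasic Cfsg.Agent.LieClassical.HermSiegel
  Cfsg.Agent.ClassicalGeometry.PSUAutCount Cfsg.Agent.Schreier.PSU Cfsg.Agent.H602.FC Cfsg.Agent.H209.Fxy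
  Cfsg.Agent.H574.IFO Cfsg.Agent.ClassicalGeometry.GUBasic
open Cfsg.Agent.ClassicalGeometry.UnitAutBasic (pr pr_surjective)

theorem card_range_mul {G H : Type*} [Group G] [Group H] (f : G →* H) :
    Nat.card G = Nat.card f.range * Nat.card f.ker := by
  rw [Subgroup.card_eq_card_quotient_mul_card_subgroup f.ker,
    Nat.card_congr (QuotientGroup.quotientKerEquivRange f).toEquiv]

section

variable {n : ℕ} {F : Type} [Field F] {q : ℕ}

/-- the conjugations by `GU` -/
noncomputable def kap (n : ℕ) (F : Type) [Field F] (q : ℕ) : Cfsg.GU n F q →* Equiv.Perm (R F (V n F)) :=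
  (H198.FC.cj F (V n F)).comp ((U n F).comp (Subgroup.subtype _))

theorem map_scalar (φ : F ≃+* F) (c : F) : fm n F φ (c • (1 : R F (V n F))) = φ c • (1 : R F (V n F)) := by
  have h1 : c • (1 : R F (V n F)) = E n F (c • (1 : Matrix (Fin n) (Fin n) F)) := by
    rw [map_smul, map_one]
  have h2 : φ c • (1 : R F (V n F)) = E n F (φ c • (1 : Matrix (Fin n) (Fin n) F)) := by
    rw [map_smul, map_one]
  rw [h1, h2, fm_E]
  congr 1
  ext i j
  by_cases hij : i = j
  · subst hij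
    simp
  · simp [Matrix.one_apply_ne hij]

theorem cj_smul_one (x : (R F (V n F))ˣ) (c : F) : H198.FC.cj F (V n F) x (c • (1 : R F (V n F))) = c • 1 := by
  rw [cj_apply, mul_smul_comm, mul_one, smul_mul_assoc, x.mul_inv]

variable [Fintype F] (hF : Fintype.card F = q ^ 2)

/-- the inner-diagonal elements of `SS Γ` come from `GU` -/
theorem exists_gu (hn : 3 ≤ n) {Γ : Subgroup (MulAut (Cfsg.PSU n F q))} {f : Equiv.Perm (R F (V n F))} (hf : f ∈ SS Γ)
    (hI : f ∈ IN F (V n F)) : ∃ g : Cfsg.GU n F q, kap n F q g = f := by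
  have : Nonempty (Fin n) := ⟨⟨0, by omega⟩⟩
  obtain ⟨σ, -, g, φ, hgφ⟩ := mem_SS.1 hf
  obtain ⟨x, hx⟩ := hI
  have h1 : f = kap n F q g * fm n F φ := congrArg Prod.fst hgφ
  have hφ : φ = 1 := by
    apply RingEquiv.ext
    intro c
    have h2 : f (c • 1) = c • 1 := by rw [← hx]; exact cj_smul_one x c
    have h3 : f (c • 1) = φ c • 1 := by
      rw [h1, Equiv.Perm.mul_apply, map_scalar]
      exact cj_smul_one _ _
    rw [h2] at h3
    have h4 := congrFun (LinearMap.congr_fun h3 (fun _ => (1 : F))) ⟨0, by omega⟩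
    have h5 : c * 1 = φ c * 1 := h4
    rw [mul_one, mul_one] at h5
    exact h5.symm
  refine ⟨g, ?_⟩
  rw [h1, hφ, map_one, mul_one]

/-- the scalars -/
def sc (n : ℕ) (F : Type) [Field F] (q : ℕ) : rootsOfUnity (q + 1) F →* Cfsg.GU n F q where
  toFun c := guDiag q (fun _ => ((c : Fˣ) : F)) (fun _ => by
    have := c.2
    rw [mem_rootsOfUnity] at this
    rw [← Units.val_pow_eq_pow_val, this, Units.val_one])
  map_one' := by
    apply gu_ext
    rw [coe_guDiag]
    exact Matrix.diagonal_one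
  map_mul' c d := by
    apply gu_ext
    rw [coe_guDiag]
    exact (Matrix.diagonal_mul_diagonal _ _).symm

theorem sc_inj (hn : 3 ≤ n) : Function.Injective (sc n F q) := by
  intro c d hcd
  have h1 := congrArg (fun g : Cfsg.GU n F q => ((g : GL (Fin n) F) : Matrix (Fin n) (Fin n) F)) hcd
  have h2 : (Matrix.diagonal fun _ : Fin n => ((c : Fˣ) : F)) = Matrix.diagonal fun _ : Fin n => ((d : Fˣ) : F) := h1
  have h3 := congrFun (Matrix.diagonal_injective h2) ⟨0, by omega⟩
  exact Subtype.ext (Units.ext h3)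

theorem kap_sc (c : rootsOfUnity (q + 1) F) : kap n F q (sc n F q c) = 1 := by
  refine H886.FC.cj_scalar (c := ((c : Fˣ) : F)) ?_
  show E n F (Matrix.diagonal fun _ => ((c : Fˣ) : F)) = ((c : Fˣ) : F) • (1 : R F (V n F))
  rw [← Matrix.smul_one_eq_diagonal, map_smul, map_one]

include hF in
/-- **a nontrivial element of `A0` comes from `SU`** -/
theorem exists_cs (hn : 3 ≤ n) {Γ : Subgroup (MulAut (Cfsg.PSU n F q))} {A0 : Subgroup (Equiv.Perm (R F (V n F)))}
    {r a : ℕ} (hC : C6Data (SS Γ) A0 r a) : ∃ s : Cfsg.SU n F q, cs s ∈ A0 ∧ cs s ≠ 1 := by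
  have : NeZero n := ⟨by omega⟩
  have : Finite (GL (Fin n) F) := inferInstance
  have : Finite (Cfsg.GU n F q) := inferInstance
  have hA0 : A0 ≤ SS Γ := hC.2.2.2.1
  have hAI : A0 ≤ IN F (V n F) := hC.2.2.2.2.1
  have hfr : Module.finrank F (V n F) = n := by rw [Module.finrank_fin_fun]
  have hnr : n = r ^ a := by rw [← hC.2.2.1, hfr]
  let P : Subgroup (Cfsg.GU n F q) := A0.comap (kap n F q)
  let κ : P →* Equiv.Perm (R F (V n F)) := (kap n F q).comp P.subtype
  let D : P →* rootsOfUnity (q + 1) F := (detHom n hF).comp P.subtype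
  have hκ : κ.range = A0 := by
    apply le_antisymm
    · rintro _ ⟨x, rfl⟩
      exact x.2
    · intro f hf
      obtain ⟨g, hg⟩ := exists_gu hn (hA0 hf) (hAI hf)
      exact ⟨⟨g, by rw [Subgroup.mem_comap, hg]; exact hf⟩, hg⟩
  have h1 := card_range_mul κ
  rw [hκ] at h1
  have h2 := card_range_mul D
  have h3 : Nat.card (rootsOfUnity (q + 1) F) ≤ Nat.card κ.ker := by
    refine Nat.card_le_card_of_injective (fun c => (⟨⟨sc n F q c, by
      rw [Subgroup.mem_comap, kap_sc]; exact A0.one_mem⟩, kap_sc c⟩ : κ.ker)) ?_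
    intro c d hcd
    exact sc_inj hn (congrArg (fun x : κ.ker => ((x : P) : Cfsg.GU n F q)) hcd)
  have h4 : Nat.card D.range ≤ Nat.card (rootsOfUnity (q + 1) F) :=
    Nat.card_le_card_of_injective _ Subtype.val_injective
  have hpos : 0 < Nat.card (rootsOfUnity (q + 1) F) := Nat.card_pos
  have h5 : Nat.card A0 ≤ Nat.card D.ker := by
    have h6 : Nat.card A0 * Nat.card (rootsOfUnity (q + 1) F) ≤ Nat.card (rootsOfUnity (q + 1) F) * Nat.card D.ker :=
      calc Nat.card A0 * Nat.card (rootsOfUnity (q + 1) F) ≤ Nat.card A0 * Nat.card κ.ker := Nat.mul_le_mul_left _ h3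
        _ = Nat.card D.range * Nat.card D.ker := by rw [← h1, h2]
        _ ≤ _ := Nat.mul_le_mul_right _ h4
    rw [mul_comm] at h6
    exact Nat.le_of_mul_le_mul_left h6 hpos
  -- not all elements of the kernel of `D` are scalars
  by_contra hcon
  push Not at hcon
  have h6 : ∀ x : D.ker, ∃ c : rootsOfUnity n F,
      ((U n F ((x : P) : Cfsg.GU n F q) : (R F (V n F))ˣ) : R F (V n F)) = ((c : Fˣ) : F) • (1 : R F (V n F)) := by
    intro x
    have hdet : (gm ((x : P) : Cfsg.GU n F q)).det = 1 := by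
      have h7 : detHom n hF ((x : P) : Cfsg.GU n F q) = 1 := x.2
      have h8 := coe_detHom n hF ((x : P) : Cfsg.GU n F q)
      rw [h7] at h8
      exact h8.symm
    have h10 : LinearMap.det ((U n F ((x : P) : Cfsg.GU n F q) : (R F (V n F))ˣ) : R F (V n F)) = 1 := by
      rw [coe_U]
      exact (LinearMap.det_toLin' _).trans hdet
    obtain ⟨s, hs⟩ := exists_su hF h10 (gu_isom hF ((x : P) : Cfsg.GU n F q))
    have hus : us s = U n F ((x : P) : Cfsg.GU n F q) := Units.ext hs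
    have h9 : cs s = 1 := by
      apply hcon s
      show H198.FC.cj F (V n F) (us s) ∈ A0
      rw [hus]
      exact (x : P).2
    obtain ⟨c, hc⟩ := H886.FC.cj_eq_one h9
    rw [hus] at hc
    have hc0 : c ≠ 0 := by
      rintro rfl
      rw [zero_smul] at hc
      exact (U n F ((x : P) : Cfsg.GU n F q)).ne_zero hc
    refine ⟨⟨Units.mk0 c hc0, ?_⟩, hc⟩
    rw [mem_rootsOfUnity]
    apply Units.ext
    rw [Units.val_pow_eq_pow_val, Units.val_mk0, Units.val_one]
    rw [hc, LinearMap.det_smul, map_one, mul_one, hfr] at h10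
    exact h10
  choose c hc using h6
  have h7 : Nat.card D.ker ≤ Nat.card (rootsOfUnity n F) := by
    refine Nat.card_le_card_of_injective c fun x y hxy => ?_
    have h8 : U n F ((x : P) : Cfsg.GU n F q) = U n F ((y : P) : Cfsg.GU n F q) := by
      apply Units.ext
      rw [hc, hc, hxy]
    have h9 : (((x : P) : Cfsg.GU n F q) : GL (Fin n) F) = (((y : P) : Cfsg.GU n F q) : GL (Fin n) F) := by
      apply Units.ext
      apply (E n F).injective
      rw [← coe_U, ← coe_U, h8]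
    exact Subtype.ext (Subtype.ext (Subtype.ext h9))
  have h8 : Nat.card (rootsOfUnity n F) ≤ n := by
    exact card_rootsOfUnity F n
  have h9 : r ^ (2 * a) ≤ r ^ a := by
    rw [← hC.2.2.2.2.2.1, ← hnr]
    exact h5.trans (h7.trans h8)
  have h10 : a < 2 * a := by have := hC.2.1; omega
  exact absurd h9 (not_le.2 (Nat.pow_lt_pow_right hC.1.one_lt h10))

include hF in
theorem pr_eq_one [IsSimpleGroup (Cfsg.PSU n F q)] {A : Subgroup (Cfsg.PSU n F q)}
    {Γ : Subgroup (MulAut (Cfsg.PSU n F q))} (h : IF A Γ) {s : Cfsg.SU n F q} (hs : cs s = 1) : pr n F q s = 1 := by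
  have h1 := pair_mem s
  rw [hs] at h1
  have h2 := eq_of_fst h1 (one_mem (HU n F q))
  apply center_bot h
  intro y
  have h3 : MulAut.conj (pr n F q s) y = y := by rw [h2]; rfl
  rw [MulAut.conj_apply, mul_inv_eq_iff_eq_mul] at h3
  exact h3

include hF in
/-- **The case C6.** -/
theorem case_C6 [IsSimpleGroup (Cfsg.PSU n F q)] (hn : 3 ≤ n) (h32 : ¬ (n = 3 ∧ q = 2)) {A : Subgroup (Cfsg.PSU n F q)}
    {Γ : Subgroup (MulAut (Cfsg.PSU n F q))} (h : IF A Γ) (hodd : Odd (Nat.card A))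
    {A0 : Subgroup (Equiv.Perm (R F (V n F)))} {r a : ℕ} (hC : C6Data (SS Γ) A0 r a) : False := by
  obtain ⟨s, hs, hs1⟩ := exists_cs hF hn hC
  have hA0 : A0 ≤ SS Γ := hC.2.2.2.1
  have hps : pr n F q s ≠ 1 := fun h1 => hs1 (cs_eq_one hF hn h1)
  have hpow : ∀ s : Cfsg.SU n F q, cs s ∈ A0 → pr n F q s ^ r = 1 := by
    intro s hs
    rw [← map_pow]
    apply pr_eq_one hF h
    rw [cs_pow]
    exact hC.2.2.2.2.2.2.1 _ hs
  by_cases hr2 : r = 2
  · -- an involution of `A`
    subst hr2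
    have h1 := hpow s hs
    have h2 : orderOf (pr n F q s) = 2 := by
      rcases (Nat.dvd_prime Nat.prime_two).1 (orderOf_dvd_of_pow_eq_one h1) with h3 | h3
      · exact absurd (orderOf_eq_one_iff.1 h3) hps
      · exact h3
    exact odd_of_mem hodd ((cs_mem_SS h).1 (hA0 hs)) (by rw [h2]; exact even_two)
  have hSB : SS Γ ≤ RB (hb n hF) := SS_le hF
  obtain ⟨g, hgg, hgd, hgi, hginv⟩ := CSix.c6_inv_isom hSB hC hr2
  obtain ⟨t, ht⟩ := exists_su hF hgd hgi
  have hut : us t = g := Units.ext ht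
  -- the group of the elements over `A0`
  let K : Subgroup (Cfsg.PSU n F q) := (A0.comap ((H198.FC.cj F (V n F)).comp us)).map (pr n F q)
  have hK : K ≤ A := by
    rintro _ ⟨s, hs, rfl⟩
    exact (cs_mem_SS h).1 (hA0 hs)
  have hKne : K ≠ ⊥ := by
    intro h1
    have h2 : pr n F q s ∈ K := ⟨s, hs, rfl⟩
    rw [h1, mem_bot] at h2
    exact hps h2
  have hKinv : ∀ σ ∈ Γ, ∀ k ∈ K, σ k ∈ K := by
    rintro σ hσ _ ⟨s, hs, rfl⟩
    obtain ⟨p, hp, hp2⟩ := exists_pairU hF hn h32 σ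
    obtain ⟨t, ht⟩ := pr_surjective (σ (pr n F q s))
    have h1 : ((p.1, σ) : GGU n F q) ∈ HU n F q := by rw [← hp2]; exact hp
    have h2 := conj_cs hF hn h1 ht
    have h3 : p.1 ∈ SS Γ := mem_SS.2 ⟨σ, hσ, h1⟩
    refine ⟨t, ?_, ht⟩
    show cs t ∈ A0
    rw [← h2]
    exact hC.2.2.2.2.2.2.2.2.2.1 _ h3 _ hs
  have hinv : ∀ s : Cfsg.SU n F q, cs s ∈ A0 → pr n F q t * pr n F q s * (pr n F q t)⁻¹ = (pr n F q s)⁻¹ := by
    intro s hs
    have h1 : cs (t * s * t⁻¹ * s) = 1 := by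
      rw [cs_mul, cs_mul, cs_mul, cs_inv]
      have h2 := hginv _ hs
      have h3 : cs t = H198.FC.cj F (V n F) g := by
        show H198.FC.cj F (V n F) (us t) = _
        rw [hut]
      rw [h3, h2, inv_mul_cancel]
    have h2 := pr_eq_one hF h h1
    rw [map_mul, map_mul, map_mul, map_inv] at h2
    exact eq_inv_of_mul_eq_one_left h2
  have hnorm : ∀ k ∈ K, pr n F q t * k * (pr n F q t)⁻¹ ∈ K := by
    rintro _ ⟨s, hs, rfl⟩
    rw [hinv s hs, ← map_inv]
    refine ⟨s⁻¹, ?_, rfl⟩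
    show cs s⁻¹ ∈ A0
    rw [cs_inv]
    exact A0.inv_mem hs
  have h1 := H447.IFO.odd_orderOf h hodd hK hKne hKinv hnorm
  have h2 := H447.IFO.even_orderOf_of_inv hps (hC.1.odd_of_ne_two hr2) (hpow s hs) (hinv s hs)
  exact (Nat.not_even_iff_odd.2 h1) h2

end

end Cfsg.Agent.H204.IFO
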